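import Cfsg.Agent.Lib.TwoFusion.Hyp.Model
import Cfsg.Agent.Lib.F4.Basic

/-!
# The two elementary abelian subgroups of order 16 in a Sylow 2-subgroup of `PSL₃(4)`
-/

set_option autoImplicit false
set_option linter.unusedSectionVars false

namespace Cfsg.Agent.Lib.L34Sec

open Matrix
open Cfsg.Agent.Lib.KS71.PSLCore Cfsg.Agent.Lib.KS71.UniTri Cfsg.Agent.Lib.KS71.PSLSylow
open Cfsg.Agent.Lib.TwoFusion.Hyp

variable {F : Type*} [Field F] [Fintype F]

theorem cube_eq_one (hF : Fintype.card F = 4) {x : F} (hx : x ≠ 0) : x ^ 3 = 1 := by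
  have := FiniteField.pow_card_sub_one_eq_one x hx
  rwa [hF] at this

theorem neg_eq_self (hF : Fintype.card F = 4) (x : F) : -x = x :=
  neg_eq_of_add_eq_zero_left (Cfsg.Agent.Lib.F4.Basic.add_self_eq_zero hF x)

theorem mkP_ut_inj {A B : UT F} (h : mkP A.1 = mkP B.1) : A = B := by
  obtain ⟨c, hc⟩ := (mkP_eq_iff _ _).1 h
  obtain ⟨a1, -⟩ := ut_entries A
  obtain ⟨b1, -⟩ := ut_entries B
  have h00 := congrFun (congrFun hc 0) 0
  rw [Matrix.smul_apply, smul_eq_mul, a1, b1, mul_one] at h00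
  rw [← h00, one_smul] at hc
  apply Subtype.ext
  apply Subtype.ext
  exact hc.symm

theorem cb_one : cb (1 : UT F) = 0 := by
  simp [cb]

theorem ca_one : ca (1 : UT F) = 0 := by
  simp [ca]

theorem cb_inv (A : UT F) : cb A⁻¹ = - cb A := by
  have h := cb_mul A A⁻¹
  rw [mul_inv_cancel, cb_one] at h
  linear_combination -h

theorem ca_inv (A : UT F) : ca A⁻¹ = - ca A := by
  have h := ca_mul A A⁻¹
  rw [mul_inv_cancel, ca_one] at h
  linear_combination -h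

/-- The image of the matrices with `cb = 0`. -/
def Abar (F : Type*) [Field F] [Fintype F] : Subgroup (ProjectiveSpecialLinearGroup (Fin 3) F) where
  carrier := {y | ∃ A : UT F, cb A = 0 ∧ mkP A.1 = y}
  one_mem' := ⟨1, cb_one, rfl⟩
  mul_mem' := by
    rintro _ _ ⟨A, hA, rfl⟩ ⟨B, hB, rfl⟩
    exact ⟨A * B, by rw [cb_mul, hA, hB, add_zero], rfl⟩
  inv_mem' := by
    rintro _ ⟨A, hA, rfl⟩
    exact ⟨A⁻¹, by rw [cb_inv, hA, neg_zero], rfl⟩

/-- The image of the matrices with `ca = 0`. -/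
def Bbar (F : Type*) [Field F] [Fintype F] : Subgroup (ProjectiveSpecialLinearGroup (Fin 3) F) where
  carrier := {y | ∃ A : UT F, ca A = 0 ∧ mkP A.1 = y}
  one_mem' := ⟨1, ca_one, rfl⟩
  mul_mem' := by
    rintro _ _ ⟨A, hA, rfl⟩ ⟨B, hB, rfl⟩
    exact ⟨A * B, by rw [ca_mul, hA, hB, add_zero], rfl⟩
  inv_mem' := by
    rintro _ ⟨A, hA, rfl⟩
    exact ⟨A⁻¹, by rw [ca_inv, hA, neg_zero], rfl⟩

theorem mem_Abar {y : ProjectiveSpecialLinearGroup (Fin 3) F} :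
    y ∈ Abar F ↔ ∃ A : UT F, cb A = 0 ∧ mkP A.1 = y := Iff.rfl

theorem mem_Bbar {y : ProjectiveSpecialLinearGroup (Fin 3) F} :
    y ∈ Bbar F ↔ ∃ A : UT F, ca A = 0 ∧ mkP A.1 = y := Iff.rfl

theorem Abar_le : Abar F ≤ Ubar 3 F := by
  rintro _ ⟨A, -, rfl⟩
  exact mem_Ubar.2 ⟨A.1, A.2, rfl⟩

theorem Bbar_le : Bbar F ≤ Ubar 3 F := by
  rintro _ ⟨A, -, rfl⟩
  exact mem_Ubar.2 ⟨A.1, A.2, rfl⟩

/-- Every element of `UT` has the given coordinates. -/
theorem ut_eq_mk (A : UT F) : A = utMk (ca A) (cb A) (cc A) :=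
  ut_ext (ca_mk _ _ _).symm (cb_mk _ _ _).symm (cc_mk _ _ _).symm

theorem card_Abar_le (hF : Fintype.card F = 4) : Nat.card (Abar F) ≤ 16 := by
  have h : Function.Surjective (fun p : F × F => (⟨mkP (utMk p.1 0 p.2).1, utMk p.1 0 p.2, rfl, rfl⟩ : Abar F)) := by
    rintro ⟨_, A, hA, rfl⟩
    refine ⟨(ca A, cc A), ?_⟩
    apply Subtype.ext
    show mkP _ = mkP _
    congr 1
    conv_rhs => rw [ut_eq_mk A, hA]
  have h2 := Nat.card_le_card_of_surjective _ h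
  rw [Nat.card_prod, Nat.card_eq_fintype_card (α := F), hF] at h2
  exact h2

theorem card_Bbar_le (hF : Fintype.card F = 4) : Nat.card (Bbar F) ≤ 16 := by
  have h : Function.Surjective (fun p : F × F => (⟨mkP (utMk 0 p.1 p.2).1, utMk 0 p.1 p.2, rfl, rfl⟩ : Bbar F)) := by
    rintro ⟨_, A, hA, rfl⟩
    refine ⟨(cb A, cc A), ?_⟩
    apply Subtype.ext
    show mkP _ = mkP _
    congr 1
    conv_rhs => rw [ut_eq_mk A, hA]
  have h2 := Nat.card_le_card_of_surjective _ h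
  rw [Nat.card_prod, Nat.card_eq_fintype_card (α := F), hF] at h2
  exact h2

/-- An exponent-two subgroup of order 16 of `Ubar` is one of the two. -/
theorem eq_Abar_or_Bbar (hF : Fintype.card F = 4) (E : Subgroup (ProjectiveSpecialLinearGroup (Fin 3) F))
    (hE : E ≤ Ubar 3 F) (hsq : ∀ y ∈ E, y * y = 1) (hc : Nat.card E = 16) :
    E = Abar F ∨ E = Bbar F := by
  have h2 : (2 : F) = 0 := Cfsg.Agent.Lib.F4.Basic.two_eq_zero hF
  have key : ∀ y ∈ E, ∃ A : UT F, mkP A.1 = y ∧ ca A * cb A = 0 := by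
    intro y hy
    obtain ⟨s, hs, rfl⟩ := mem_Ubar.1 (hE hy)
    refine ⟨⟨s, hs⟩, rfl, ?_⟩
    have h1 : mkP ((⟨s, hs⟩ : UT F) * ⟨s, hs⟩).1 = mkP (1 : UT F).1 := hsq _ hy
    have h3 := mkP_ut_inj h1
    have h4 := (sq_ut h2 (⟨s, hs⟩ : UT F)).2.2
    rw [h3] at h4
    rw [← h4]
    simp [cc]
  by_cases hA : ∀ y ∈ E, y ∈ Abar F
  · left
    exact Subgroup.eq_of_le_of_card_ge hA (by rw [hc]; exact card_Abar_le hF)
  · right
    push Not at hA
    obtain ⟨y, hy, hyA⟩ := hA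
    obtain ⟨A, rfl, hA0⟩ := key y hy
    have hcb : cb A ≠ 0 := fun h => hyA ⟨A, h, rfl⟩
    have hca : ca A = 0 := (mul_eq_zero.mp hA0).resolve_right hcb
    have hle : E ≤ Bbar F := by
      intro z hz
      obtain ⟨B, rfl, hB0⟩ := key z hz
      refine ⟨B, ?_, rfl⟩
      by_contra hB
      have hcbB : cb B = 0 := (mul_eq_zero.mp hB0).resolve_left hB
      obtain ⟨C, hC, hC0⟩ := key _ (E.mul_mem hy hz)
      have h5 : C = A * B := mkP_ut_inj hC
      rw [h5, ca_mul, cb_mul, hca, hcbB, zero_add, add_zero] at hC0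
      exact (mul_eq_zero.mp hC0).elim hB hcb
    exact Subgroup.eq_of_le_of_card_ge hle (by rw [hc]; exact card_Bbar_le hF)

end Cfsg.Agent.Lib.L34Sec
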