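import Cfsg.Agent.Lib.L34Sec.Tau
import Cfsg.Agent.Lib.Coprime.Bridge

/-!
# Central extensions of `PSL₃(4)` by elementary abelian 2-groups: the two parabolic sections
-/

set_option autoImplicit false
set_option linter.unusedSectionVars false

namespace Cfsg.Agent.Lib.L34Sec

open Matrix
open Cfsg.Agent.Lib.KS71.PSLCore Cfsg.Agent.Lib.KS71.UniTri Cfsg.Agent.Lib.KS71.PSLSylow
open Cfsg.Agent.Lib.TwoFusion.Hyp

variable {F : Type*} [Field F] [Fintype F]

section core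

variable {X : Type*} [Group X] (hF : Fintype.card F = 4)
  (ψ : X →* ProjectiveSpecialLinearGroup (Fin 3) F) (hs : Function.Surjective ψ)
  (hker : ∀ x, ψ x = 1 ↔ x ∈ Subgroup.center X)
  (hZ : ∀ z ∈ Subgroup.center X, z * z = 1)
  (H K : Subgroup X) (hH : ∀ x, x ∈ H ↔ ψ x ∈ Abar F) (hK : ∀ x, x ∈ K ↔ ψ x ∈ Bbar F)

include hF hs hker hZ hH hK

/-- The subgroups generate the preimage of `Ubar`. -/
theorem sup_eq_comap : H ⊔ K = (Ubar 3 F).comap ψ := by
  apply le_antisymm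
  · refine sup_le ?_ ?_
    · intro x hx
      exact Abar_le ((hH x).1 hx)
    · intro x hx
      exact Bbar_le ((hK x).1 hx)
  · intro x hx
    obtain ⟨s, hs1, hs2⟩ := mem_Ubar.1 (Subgroup.mem_comap.1 hx)
    obtain ⟨h, hh⟩ := hs (mkP (utMk (ca (⟨s, hs1⟩ : UT F)) 0 (cc (⟨s, hs1⟩ : UT F) - ca (⟨s, hs1⟩ : UT F) * cb (⟨s, hs1⟩ : UT F)) : UT F).1)
    obtain ⟨k, hk⟩ := hs (mkP (utMk 0 (cb (⟨s, hs1⟩ : UT F)) 0 : UT F).1)
    have hhH : h ∈ H := (hH h).2 (by rw [hh]; exact ⟨_, rfl, rfl⟩)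
    have hkK : k ∈ K := (hK k).2 (by rw [hk]; exact ⟨_, rfl, rfl⟩)
    have h3 : (⟨s, hs1⟩ : UT F) = utMk (ca (⟨s, hs1⟩ : UT F)) 0 (cc (⟨s, hs1⟩ : UT F) - ca (⟨s, hs1⟩ : UT F) * cb (⟨s, hs1⟩ : UT F)) * utMk 0 (cb (⟨s, hs1⟩ : UT F)) 0 := by
      apply ut_ext
      · rw [ca_mul, ca_mk, ca_mk, add_zero]
      · rw [cb_mul, cb_mk, cb_mk, zero_add]
      · rw [cc_mul, cc_mk, cc_mk, ca_mk, cb_mk]
        ring
    have h4 : ψ x = ψ (h * k) := by
      rw [map_mul, hh, hk, ← hs2, ← mkP_mul]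
      apply mkP_congr
      conv_lhs => rw [show s = (⟨s, hs1⟩ : UT F).1 from rfl, h3]
      rfl
    have h5 : x * (h * k)⁻¹ ∈ H := by
      rw [hH, map_mul, map_inv, h4, mul_inv_cancel]
      exact one_mem _
    have h6 : x = (x * (h * k)⁻¹ * h) * k := by group
    rw [h6]
    exact Subgroup.mul_mem _ (Subgroup.mem_sup_left (H.mul_mem h5 hhH)) (Subgroup.mem_sup_right hkK)

/-- The intersection is the centre. -/
theorem inf_eq_center : H ⊓ K = (Subgroup.center ↥(H ⊔ K)).map (H ⊔ K).subtype := by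
  have hsqH : ∀ x ∈ H, x * x = 1 := fun x hx => sq_eq_one_of_mem hF ψ hs hker hZ H hH hx
  have hψ' : Function.Surjective (tau.comp ψ) := tau_bijective.2.comp hs
  have hker' : ∀ x, (tau.comp ψ) x = 1 ↔ x ∈ Subgroup.center X := by
    intro x
    rw [← hker x, MonoidHom.comp_apply]
    exact (map_eq_one_iff tau tau_bijective.1)
  have hK' : ∀ x, x ∈ K ↔ (tau.comp ψ) x ∈ Abar F := by
    intro x
    rw [hK, MonoidHom.comp_apply, mem_Bbar_iff_tau]
  have hsqK : ∀ x ∈ K, x * x = 1 := fun x hx => sq_eq_one_of_mem hF (tau.comp ψ) hψ' hker' hZ K hK' hx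
  have hcomm : ∀ (L : Subgroup X), (∀ x ∈ L, x * x = 1) → ∀ x ∈ L, ∀ y ∈ L, y * x = x * y := by
    intro L hL x hx y hy
    exact comm_of_exp_two (hL _ hy) (hL _ hx) (hL _ (L.mul_mem hy hx))
  have hsup := sup_eq_comap hF ψ hs hker hZ H K hH hK
  apply le_antisymm
  · rintro x ⟨hxH, hxK⟩
    refine ⟨⟨x, Subgroup.mem_sup_left hxH⟩, ?_, rfl⟩
    refine Subgroup.mem_center_iff.2 ?_
    rintro ⟨g, hg⟩
    apply Subtype.ext
    show g * x = x * g
    have hle : H ⊔ K ≤ Subgroup.centralizer ({x} : Set X) := by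
      apply sup_le
      · intro y hy
        rw [Subgroup.mem_centralizer_singleton_iff]
        exact hcomm H hsqH x hxH y hy
      · intro y hy
        rw [Subgroup.mem_centralizer_singleton_iff]
        exact hcomm K hsqK x hxK y hy
    have := hle hg
    rwa [Subgroup.mem_centralizer_singleton_iff] at this
  · rintro _ ⟨⟨x, hx⟩, hxc, rfl⟩
    replace hxc := Subgroup.mem_center_iff.1 hxc
    have hx' := hx
    rw [hsup] at hx'
    obtain ⟨s, hs1, hs2⟩ := mem_Ubar.1 (Subgroup.mem_comap.1 hx')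
    have key : ∀ v : UT F, v * ⟨s, hs1⟩ = ⟨s, hs1⟩ * v := by
      intro v
      obtain ⟨y, hy⟩ := hs (mkP v.1)
      have hyU : y ∈ H ⊔ K := by
        rw [hsup]
        exact mem_Ubar.2 ⟨v.1, v.2, hy.symm⟩
      have h3 : y * x = x * y := congrArg Subtype.val (hxc ⟨y, hyU⟩)
      have h4 := congrArg ψ h3
      rw [map_mul, map_mul, hy, ← hs2] at h4
      exact mkP_ut_inj h4
    have h1 := congrArg cc (key (utMk 1 0 0))
    have h2 := congrArg cc (key (utMk 0 1 0))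
    rw [cc_mul, cc_mul, ca_mk, cb_mk, cc_mk] at h1 h2
    have h10 : cb (⟨s, hs1⟩ : UT F) = 0 := by linear_combination h1
    have h20 : ca (⟨s, hs1⟩ : UT F) = 0 := by linear_combination -h2
    refine ⟨(hH x).2 ?_, (hK x).2 ?_⟩
    · rw [← hs2]
      exact ⟨⟨s, hs1⟩, h10, rfl⟩
    · rw [← hs2]
      exact ⟨⟨s, hs1⟩, h20, rfl⟩

/-- The core theorem. -/
theorem core [Finite X] :
    (∀ x ∈ H, x * x = 1) ∧ (∀ x ∈ K, x * x = 1) ∧ H ⊓ K = (Subgroup.center ↥(H ⊔ K)).map (H ⊔ K).subtype ∧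
      (∃ C : Subgroup X, C ≤ Subgroup.normalizer (H : Set X) ∧ C ⊓ H = ⊥ ∧ H ⊔ C = Subgroup.normalizer (H : Set X) ∧
        Nonempty (↥C ≃* ProjectiveSpecialLinearGroup (Fin 2) F)) ∧
      (∃ C : Subgroup X, C ≤ Subgroup.normalizer (K : Set X) ∧ C ⊓ K = ⊥ ∧ K ⊔ C = Subgroup.normalizer (K : Set X) ∧
        Nonempty (↥C ≃* ProjectiveSpecialLinearGroup (Fin 2) F)) := by
  have hsqH : ∀ x ∈ H, x * x = 1 := fun x hx => sq_eq_one_of_mem hF ψ hs hker hZ H hH hx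
  have hψ' : Function.Surjective (tau.comp ψ) := tau_bijective.2.comp hs
  have hker' : ∀ x, (tau.comp ψ) x = 1 ↔ x ∈ Subgroup.center X := by
    intro x
    rw [← hker x, MonoidHom.comp_apply]
    exact (map_eq_one_iff tau tau_bijective.1)
  have hK' : ∀ x, x ∈ K ↔ (tau.comp ψ) x ∈ Abar F := by
    intro x
    rw [hK, MonoidHom.comp_apply, mem_Bbar_iff_tau]
  have hsqK : ∀ x ∈ K, x * x = 1 := fun x hx => sq_eq_one_of_mem hF (tau.comp ψ) hψ' hker' hZ K hK' hx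
  have hsup := sup_eq_comap hF ψ hs hker hZ H K hH hK
  haveI : Fact (Nat.Prime 2) := ⟨Nat.prime_two⟩
  have hcomm : ∀ (L : Subgroup X), (∀ x ∈ L, x * x = 1) → ∀ x ∈ L, ∀ y ∈ L, x * y = y * x := by
    intro L hL x hx y hy
    exact comm_of_exp_two (hL _ hx) (hL _ hy) (hL _ (L.mul_mem hx hy))
  refine ⟨hsqH, hsqK, inf_eq_center hF ψ hs hker hZ H K hH hK, ?_, ?_⟩
  · obtain ⟨W, hWK, hW1, hW2⟩ := Cfsg.Agent.Lib.Coprime.Bridge.exists_complement_of_elementary (p := 2) K (H ⊓ K) (hcomm K hsqK)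
      (fun x hx => by rw [pow_two]; exact hsqK x hx) inf_le_right
    refine exists_complement hF ψ hs hker hZ H hH W ?_ ?_
    · rw [eq_bot_iff]
      rintro x ⟨hx1, hx2⟩
      have : x ∈ H ⊓ K ⊓ W := ⟨⟨hx2, hWK hx1⟩, hx1⟩
      rwa [hW1] at this
    · calc H ⊔ W = H ⊔ (H ⊓ K) ⊔ W := by rw [(sup_eq_left.2 inf_le_left : H ⊔ (H ⊓ K) = H)]
        _ = H ⊔ (H ⊓ K ⊔ W) := sup_assoc _ _ _
        _ = H ⊔ K := by rw [hW2]
        _ = _ := hsup
  · obtain ⟨W, hWK, hW1, hW2⟩ := Cfsg.Agent.Lib.Coprime.Bridge.exists_complement_of_elementary (p := 2) H (H ⊓ K) (hcomm H hsqH)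
      (fun x hx => by rw [pow_two]; exact hsqH x hx) inf_le_left
    refine exists_complement hF (tau.comp ψ) hψ' hker' hZ K hK' W ?_ ?_
    · rw [eq_bot_iff]
      rintro x ⟨hx1, hx2⟩
      have : x ∈ H ⊓ K ⊓ W := ⟨⟨hWK hx1, hx2⟩, hx1⟩
      rwa [hW1] at this
    · have h3 : (Ubar 3 F).comap (tau.comp ψ) = (Ubar 3 F).comap ψ := by
        ext x
        rw [Subgroup.mem_comap, Subgroup.mem_comap, MonoidHom.comp_apply, ← mem_Ubar_iff_tau]
      calc K ⊔ W = K ⊔ (H ⊓ K) ⊔ W := by rw [(sup_eq_left.2 inf_le_right : K ⊔ (H ⊓ K) = K)]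
        _ = K ⊔ (H ⊓ K ⊔ W) := sup_assoc _ _ _
        _ = K ⊔ H := by rw [hW2]
        _ = H ⊔ K := sup_comm _ _
        _ = _ := hsup
        _ = _ := h3.symm

end core

/-- The main statement. -/
theorem main {X : Type*} [Group X] [Finite X] (hZ : Cfsg.IsElementaryAbelian 2 (Subgroup.center X))
    (hF : Fintype.card F = 4) (hXL : Nonempty ((X ⧸ Subgroup.center X) ≃* ProjectiveSpecialLinearGroup (Fin 3) F))
    (T : Sylow 2 X) (H K : Subgroup X) (hHK : H ≠ K) (hHT : H ≤ T) (hKT : K ≤ T) (hZH : Subgroup.center X ≤ H) (hZK : Subgroup.center X ≤ K)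
    (hH : Cfsg.IsElementaryAbelian 2 (H.map (QuotientGroup.mk' (Subgroup.center X))) ∧ Nat.card ↥(H.map (QuotientGroup.mk' (Subgroup.center X))) = 16)
    (hK : Cfsg.IsElementaryAbelian 2 (K.map (QuotientGroup.mk' (Subgroup.center X))) ∧ Nat.card ↥(K.map (QuotientGroup.mk' (Subgroup.center X))) = 16) :
    Cfsg.IsElementaryAbelian 2 H ∧ Cfsg.IsElementaryAbelian 2 K ∧
      H ⊓ K = (Subgroup.center ↥(H ⊔ K)).map (H ⊔ K).subtype ∧
      (∃ C : Subgroup X, C ≤ Subgroup.normalizer (H : Set X) ∧ C ⊓ H = ⊥ ∧ H ⊔ C = Subgroup.normalizer (H : Set X) ∧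
        Nonempty (↥C ≃* ProjectiveSpecialLinearGroup (Fin 2) F)) ∧
      (∃ C : Subgroup X, C ≤ Subgroup.normalizer (K : Set X) ∧ C ⊓ K = ⊥ ∧ K ⊔ C = Subgroup.normalizer (K : Set X) ∧
        Nonempty (↥C ≃* ProjectiveSpecialLinearGroup (Fin 2) F)) := by
  classical
  haveI : Fact (Nat.Prime 2) := ⟨Nat.prime_two⟩
  obtain ⟨e⟩ := hXL
  -- the map `ψ₀`
  let ψ₀ : X →* ProjectiveSpecialLinearGroup (Fin 3) F := e.toMonoidHom.comp (QuotientGroup.mk' (Subgroup.center X))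
  obtain ⟨S, hS⟩ := exists_sylow (F := F) hF
  obtain ⟨Q, hQ⟩ := (T.2.map ψ₀).exists_le_sylow
  obtain ⟨g, hg⟩ := MulAction.exists_smul_eq (ProjectiveSpecialLinearGroup (Fin 3) F) S Q
  let σ : ProjectiveSpecialLinearGroup (Fin 3) F →* ProjectiveSpecialLinearGroup (Fin 3) F :=
    (MulAut.conj g⁻¹).toMonoidHom
  have hσ : Function.Bijective σ := (MulAut.conj g⁻¹).bijective
  let ψ : X →* ProjectiveSpecialLinearGroup (Fin 3) F := σ.comp ψ₀
  have hs : Function.Surjective ψ :=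
    hσ.2.comp (e.surjective.comp (QuotientGroup.mk'_surjective _))
  have hker : ∀ x, ψ x = 1 ↔ x ∈ Subgroup.center X := by
    intro x
    have h1 : ψ x = σ (e (QuotientGroup.mk' (Subgroup.center X) x)) := rfl
    rw [h1, map_eq_one_iff σ hσ.1, map_eq_one_iff e e.injective, QuotientGroup.mk'_apply, QuotientGroup.eq_one_iff]
  have hZ' : ∀ z ∈ Subgroup.center X, z * z = 1 := fun z hz => by
    rw [← pow_two]
    exact hZ.2 z hz
  have hTU : ∀ x ∈ (T : Subgroup X), ψ x ∈ Ubar 3 F := by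
    intro x hx
    have h1 : ψ₀ x ∈ (Q : Subgroup _) := hQ ⟨x, hx, rfl⟩
    rw [← hg, Sylow.coe_subgroup_smul, Subgroup.mem_pointwise_smul_iff_inv_smul_mem, hS] at h1
    have h2 : ψ x = (MulAut.conj g)⁻¹ • ψ₀ x := by
      rw [MulAut.smul_def, ← map_inv]
      rfl
    rw [h2]
    exact h1
  have aux : ∀ L : Subgroup X, L ≤ T → (Cfsg.IsElementaryAbelian 2 (L.map (QuotientGroup.mk' (Subgroup.center X))) ∧
      Nat.card ↥(L.map (QuotientGroup.mk' (Subgroup.center X))) = 16) → L.map ψ = Abar F ∨ L.map ψ = Bbar F := by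
    intro L hLT hL
    apply eq_Abar_or_Bbar hF
    · rintro _ ⟨x, hx, rfl⟩
      exact hTU x (hLT hx)
    · rintro _ ⟨x, hx, rfl⟩
      have h1 := hL.1.2 _ (Subgroup.mem_map_of_mem (QuotientGroup.mk' (Subgroup.center X)) hx)
      have h2 : ψ x * ψ x = σ (e ((QuotientGroup.mk' (Subgroup.center X) x) ^ 2)) := by
        rw [pow_two, map_mul, map_mul]
        rfl
      rw [h2, h1, map_one, map_one]
    · have h3 : L.map ψ = (L.map (QuotientGroup.mk' (Subgroup.center X))).map (σ.comp e.toMonoidHom) := by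
        rw [Subgroup.map_map]
        rfl
      have hi : Function.Injective (σ.comp e.toMonoidHom) := fun a b h => e.injective (hσ.1 h)
      rw [h3, Subgroup.card_map_of_injective hi]
      exact hL.2
  have hmem : ∀ L : Subgroup X, Subgroup.center X ≤ L → ∀ x, x ∈ L ↔ ψ x ∈ L.map ψ := by
    intro L hL x
    constructor
    · exact Subgroup.mem_map_of_mem ψ
    · rintro ⟨y, hy, hxy⟩
      have h1 : x * y⁻¹ ∈ Subgroup.center X := by
        rw [← hker, map_mul, map_inv, hxy, mul_inv_cancel]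
      have h2 : x = x * y⁻¹ * y := by group
      rw [h2]
      exact L.mul_mem (hL h1) hy
  have hne : H.map ψ ≠ K.map ψ := by
    intro h
    apply hHK
    ext x
    rw [hmem H hZH, hmem K hZK, h]
  have el : ∀ L : Subgroup X, (∀ x ∈ L, x * x = 1) → Cfsg.IsElementaryAbelian 2 L := by
    intro L hL
    refine ⟨⟨⟨fun a b => ?_⟩⟩, fun a ha => by rw [pow_two]; exact hL a ha⟩
    apply Subtype.ext
    exact comm_of_exp_two (hL _ a.2) (hL _ b.2) (hL _ (L.mul_mem a.2 b.2))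
  rcases aux H hHT hH with h1 | h1 <;> rcases aux K hKT hK with h2 | h2
  · exact absurd (h1.trans h2.symm) hne
  · obtain ⟨a1, a2, a3, a4, a5⟩ := core hF ψ hs hker hZ' H K (fun x => h1 ▸ hmem H hZH x) (fun x => h2 ▸ hmem K hZK x)
    exact ⟨el H a1, el K a2, a3, a4, a5⟩
  · obtain ⟨a1, a2, a3, a4, a5⟩ := core hF ψ hs hker hZ' K H (fun x => h2 ▸ hmem K hZK x) (fun x => h1 ▸ hmem H hZH x)
    rw [sup_comm, inf_comm] at a3
    exact ⟨el H a2, el K a1, a3, a5, a4⟩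
  · exact absurd (h1.trans h2.symm) hne

end Cfsg.Agent.Lib.L34Sec
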