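import Cfsg.Agent.Lib.L34Sec.Basic

/-!
# The parabolic subgroup stabilising a line, and its Levi quotient over the field with four elements
-/

set_option autoImplicit false
set_option linter.unusedSectionVars false

namespace Cfsg.Agent.Lib.L34Sec

open Matrix
open Cfsg.Agent.Lib.KS71.PSLCore Cfsg.Agent.Lib.KS71.UniTri Cfsg.Agent.Lib.KS71.PSLSylow
open Cfsg.Agent.Lib.TwoFusion.Hyp

variable {F : Type*} [Field F] [Fintype F]

/-- The stabiliser of the first basis line. -/
def Par (F : Type*) [Field F] [Fintype F] : Subgroup (SpecialLinearGroup (Fin 3) F) where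
  carrier := {g | g.1 1 0 = 0 ∧ g.1 2 0 = 0}
  one_mem' := by simp
  mul_mem' := by
    rintro a b ⟨a1, a2⟩ ⟨b1, b2⟩
    constructor
    · show (a.1 * b.1) 1 0 = 0
      rw [Matrix.mul_apply, Fin.sum_univ_three, a1, b1, b2]
      ring
    · show (a.1 * b.1) 2 0 = 0
      rw [Matrix.mul_apply, Fin.sum_univ_three, a2, b1, b2]
      ring
  inv_mem' := by
    rintro a ⟨a1, a2⟩
    constructor
    · rw [Matrix.SpecialLinearGroup.coe_inv, Matrix.adjugate_fin_three]
      simp [a1, a2]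
    · rw [Matrix.SpecialLinearGroup.coe_inv, Matrix.adjugate_fin_three]
      simp [a1, a2]

theorem mem_Par {g : SpecialLinearGroup (Fin 3) F} : g ∈ Par F ↔ g.1 1 0 = 0 ∧ g.1 2 0 = 0 := Iff.rfl

/-- The Levi block. -/
def blk (g : SpecialLinearGroup (Fin 3) F) : Matrix (Fin 2) (Fin 2) F :=
  !![g.1 1 1, g.1 1 2; g.1 2 1, g.1 2 2]

theorem blk_mul {g h : SpecialLinearGroup (Fin 3) F} (hg : g ∈ Par F) (hh : h ∈ Par F) :
    blk (g * h) = blk g * blk h := by
  obtain ⟨a1, a2⟩ := hg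
  obtain ⟨b1, b2⟩ := hh
  have e : ∀ i j, (g * h).1 i j = g.1 i 0 * h.1 0 j + g.1 i 1 * h.1 1 j + g.1 i 2 * h.1 2 j := by
    intro i j
    show (g.1 * h.1) i j = _
    rw [Matrix.mul_apply, Fin.sum_univ_three]
  ext i j
  fin_cases i <;> fin_cases j <;>
    simp [blk, Matrix.mul_apply, Fin.sum_univ_two, e, a1, a2]

theorem det_eq {g : SpecialLinearGroup (Fin 3) F} (hg : g ∈ Par F) : g.1 0 0 * (blk g).det = 1 := by
  obtain ⟨a1, a2⟩ := hg
  have h := g.2
  rw [Matrix.det_fin_three, a1, a2] at h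
  rw [Matrix.det_fin_two]
  simp only [blk, Matrix.of_apply, Matrix.cons_val', Matrix.cons_val_zero, Matrix.cons_val_one, Matrix.cons_val_fin_one]
  linear_combination h

/-- The map to `SL₂` sending `g` to the block `D` multiplied by its determinant. -/
noncomputable def rho0 (hF : Fintype.card F = 4) : ↥(Par F) →* SpecialLinearGroup (Fin 2) F where
  toFun g := ⟨(blk g.1).det • blk g.1, by
    have h := det_eq g.2
    have h0 : (blk g.1).det ≠ 0 := right_ne_zero_of_mul_eq_one h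
    rw [Matrix.det_smul, Fintype.card_fin, pow_two]
    rw [← pow_two, ← pow_succ]
    exact cube_eq_one hF h0⟩
  map_one' := by
    apply Subtype.ext
    have : blk (1 : SpecialLinearGroup (Fin 3) F) = 1 := by
      ext i j
      fin_cases i <;> fin_cases j <;> simp [blk]
    show (blk (1 : SpecialLinearGroup (Fin 3) F)).det • blk (1 : SpecialLinearGroup (Fin 3) F) = 1
    rw [this]
    simp
  map_mul' := by
    intro a b
    apply Subtype.ext
    show (blk (a.1 * b.1)).det • blk (a.1 * b.1) = ((blk a.1).det • blk a.1) * ((blk b.1).det • blk b.1)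
    rw [blk_mul a.2 b.2, Matrix.det_mul, Matrix.smul_mul, Matrix.mul_smul, smul_smul]

theorem rho0_apply (hF : Fintype.card F = 4) (g : ↥(Par F)) :
    ((rho0 hF g : SpecialLinearGroup (Fin 2) F) : Matrix (Fin 2) (Fin 2) F) = (blk g.1).det • blk g.1 := rfl

/-- Elements of `A` lie in `Par` with a scalar. -/
theorem smul_ut_mem {g : SpecialLinearGroup (Fin 3) F} {A : UT F} {c : F} (hc : g.1 = c • A.1.1) : g ∈ Par F := by
  obtain ⟨a1, a2, a3, a4, a5, a6⟩ := ut_entries A
  constructor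
  · rw [hc, Matrix.smul_apply, a4, smul_zero]
  · rw [hc, Matrix.smul_apply, a5, smul_zero]

theorem c_cube {g : SpecialLinearGroup (Fin 3) F} {A : UT F} {c : F} (hc : g.1 = c • A.1.1) : c ^ 3 = 1 := by
  have h := congrArg Matrix.det hc
  rw [Matrix.SpecialLinearGroup.det_coe, Matrix.det_smul, Matrix.SpecialLinearGroup.det_coe] at h
  simpa using h.symm

/-- Lifts of `Abar` to `SL₃` are the scalar multiples. -/
theorem mem_Abar_iff_smul {g : SpecialLinearGroup (Fin 3) F} :
    mkP g ∈ Abar F ↔ ∃ (A : UT F) (c : F), cb A = 0 ∧ g.1 = c • A.1.1 := by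
  constructor
  · rintro ⟨A, hA, h⟩
    obtain ⟨c, hc⟩ := (mkP_eq_iff _ _).1 h
    exact ⟨A, c, hA, hc⟩
  · rintro ⟨A, c, hA, hc⟩
    exact ⟨A, hA, (mkP_eq_iff _ _).2 ⟨c, hc⟩⟩

/-- The kernel of `rho0`. -/
theorem rho0_eq_one_iff (hF : Fintype.card F = 4) (g : ↥(Par F)) :
    rho0 hF g = 1 ↔ mkP g.1 ∈ Abar F := by
  have h2 : (2 : F) = 0 := Cfsg.Agent.Lib.F4.Basic.two_eq_zero hF
  constructor
  · intro h
    have hd := det_eq g.2
    set δ := (blk g.1).det with hδ
    have hδ0 : δ ≠ 0 := right_ne_zero_of_mul_eq_one hd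
    have hm : δ • blk g.1 = 1 := by
      have := congrArg Subtype.val h
      rwa [rho0_apply] at this
    have h11 : δ * g.1.1 1 1 = 1 := by
      have := congrFun (congrFun hm 0) 0
      simpa [blk] using this
    have h12 : δ * g.1.1 1 2 = 0 := by
      have := congrFun (congrFun hm 0) 1
      simpa [blk] using this
    have h21 : δ * g.1.1 2 1 = 0 := by
      have := congrFun (congrFun hm 1) 0
      simpa [blk] using this
    have h22 : δ * g.1.1 2 2 = 1 := by
      have := congrFun (congrFun hm 1) 1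
      simpa [blk] using this
    have h12' : g.1.1 1 2 = 0 := (mul_eq_zero.mp h12).resolve_left hδ0
    have h21' : g.1.1 2 1 = 0 := (mul_eq_zero.mp h21).resolve_left hδ0
    have hd3 := cube_eq_one hF hδ0
    -- set ν = δ²
    have e11 : g.1.1 1 1 = δ ^ 2 := by
      have : δ * g.1.1 1 1 = δ * δ ^ 2 := by rw [h11, ← pow_succ', hd3]
      exact mul_left_cancel₀ hδ0 this
    have e22 : g.1.1 2 2 = δ ^ 2 := by
      have : δ * g.1.1 2 2 = δ * δ ^ 2 := by rw [h22, ← pow_succ', hd3]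
      exact mul_left_cancel₀ hδ0 this
    have e00 : g.1.1 0 0 = δ ^ 2 := by
      have : g.1.1 0 0 * δ = δ ^ 2 * δ := by rw [hd, ← pow_succ, hd3]
      exact mul_right_cancel₀ hδ0 this
    rw [mem_Abar_iff_smul]
    refine ⟨utMk (δ * g.1.1 0 1) 0 (δ * g.1.1 0 2), δ ^ 2, rfl, ?_⟩
    obtain ⟨a1, a2⟩ := g.2
    have hδ3 : δ ^ 2 * δ = 1 := by rw [← pow_succ, hd3]
    ext i j
    fin_cases i <;> fin_cases j
    · simpa [utMk] using e00
    · simp only [utMk, Fin.zero_eta, Fin.mk_one, Matrix.smul_apply, Matrix.of_apply, smul_eq_mul, Matrix.cons_val', Matrix.cons_val_zero, Matrix.cons_val_one, Matrix.cons_val_fin_one]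
      linear_combination -(g.1.1 0 1) * hδ3
    · simp only [utMk, Fin.zero_eta, Fin.reduceFinMk, Matrix.smul_apply, Matrix.of_apply, smul_eq_mul, Matrix.cons_val', Matrix.cons_val_zero, Matrix.cons_val_fin_one, Matrix.cons_val]
      linear_combination -(g.1.1 0 2) * hδ3
    · simpa [utMk] using a1
    · simpa [utMk] using e11
    · simpa [utMk] using h12'
    · simpa [utMk] using a2
    · simpa [utMk] using h21'
    · simpa [utMk] using e22
  · intro h
    obtain ⟨A, c, hA, hc⟩ := mem_Abar_iff_smul.1 h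
    have hc3 := c_cube hc
    obtain ⟨a1, a2, a3, a4, a5, a6⟩ := ut_entries A
    have hb : blk g.1 = c • 1 := by
      ext i j
      fin_cases i <;> fin_cases j
      · simp [blk, hc, a2]
      · simp only [blk, hc]
        have : A.1.1 1 2 = 0 := hA
        simp [this]
      · simp [blk, hc, a6]
      · simp [blk, hc, a3]
    apply Subtype.ext
    rw [rho0_apply, hb]
    simp only [Matrix.det_smul, Matrix.det_one, Fintype.card_fin, mul_one, smul_smul]
    rw [← pow_succ, hc3, one_smul]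
    rfl

/-- Scalars do not matter for `rho0`. -/
theorem rho0_congr (hF : Fintype.card F = 4) {g h : ↥(Par F)} (e : mkP g.1 = mkP h.1) : rho0 hF g = rho0 hF h := by
  have h1 : rho0 hF (g⁻¹ * h) = 1 := by
    rw [rho0_eq_one_iff]
    have : mkP (g⁻¹ * h).1 = 1 := by
      show mkP (g.1⁻¹ * h.1) = 1
      rw [mkP_mul, mkP_inv, ← e, inv_mul_cancel]
    rw [this]
    exact one_mem _
  rw [map_mul, map_inv, inv_mul_eq_one] at h1
  exact h1

/-- An element of `SL₃` whose class normalises `Abar` lies in `Par`. -/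
theorem mem_Par_of_normalizer (hF : Fintype.card F = 4) {g : SpecialLinearGroup (Fin 3) F}
    (hg : mkP g ∈ Subgroup.normalizer ((Abar F : Subgroup _) : Set (ProjectiveSpecialLinearGroup (Fin 3) F))) : g ∈ Par F := by
  have key : ∀ u : UT F, cb u = 0 → ∃ c : F, ∀ i : Fin 3, (u.1 * g).1 i 0 = c * g.1 i 0 := by
    intro u hu
    have h1 : mkP g * (mkP (g⁻¹ * u.1 * g)) * (mkP g)⁻¹ ∈ Abar F := by
      have : mkP g * (mkP (g⁻¹ * u.1 * g)) * (mkP g)⁻¹ = mkP u.1 := by
        rw [← mkP_inv, ← mkP_mul, ← mkP_mul]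
        congr 1
        group
      rw [this]
      exact ⟨u, hu, rfl⟩
    have h2 := (Subgroup.mem_normalizer_iff.1 hg _).2 h1
    obtain ⟨A, c, hA, hc⟩ := mem_Abar_iff_smul.1 h2
    refine ⟨c, ?_⟩
    intro i
    have h3 : u.1 * g = g * (g⁻¹ * u.1 * g) := by group
    rw [h3]
    show (g.1 * (g⁻¹ * u.1 * g).1) i 0 = _
    rw [hc]
    obtain ⟨a1, a2, a3, a4, a5, a6⟩ := ut_entries A
    rw [Matrix.mul_smul, Matrix.smul_apply, Matrix.mul_apply, Fin.sum_univ_three, a1, a4, a5, smul_eq_mul]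
    ring
  obtain ⟨c, hc⟩ := key (utMk 1 0 0) rfl
  obtain ⟨d, hd⟩ := key (utMk 0 0 1) rfl
  have e1 : ∀ i : Fin 3, ((utMk 1 0 0 : UT F).1 * g).1 i 0 = (utMk 1 0 0 : UT F).1.1 i 0 * g.1 0 0 +
      (utMk 1 0 0 : UT F).1.1 i 1 * g.1 1 0 + (utMk 1 0 0 : UT F).1.1 i 2 * g.1 2 0 := by
    intro i
    show ((utMk 1 0 0 : UT F).1.1 * g.1) i 0 = _
    rw [Matrix.mul_apply, Fin.sum_univ_three]
  have e2 : ∀ i : Fin 3, ((utMk 0 0 1 : UT F).1 * g).1 i 0 = (utMk 0 0 1 : UT F).1.1 i 0 * g.1 0 0 +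
      (utMk 0 0 1 : UT F).1.1 i 1 * g.1 1 0 + (utMk 0 0 1 : UT F).1.1 i 2 * g.1 2 0 := by
    intro i
    show ((utMk 0 0 1 : UT F).1.1 * g.1) i 0 = _
    rw [Matrix.mul_apply, Fin.sum_univ_three]
  have c0 := hc 0
  have c1 := hc 1
  have c2 := hc 2
  have d0 := hd 0
  have d1 := hd 1
  have d2 := hd 2
  rw [e1] at c0 c1 c2
  rw [e2] at d0 d1 d2
  simp [utMk] at c0 c1 c2 d0 d1 d2
  have aux : ∀ {c x : F}, c ≠ 1 → x = c * x → x = 0 := by
    intro c x hc hx
    have h3 : (1 - c) * x = 0 := by linear_combination hx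
    exact (mul_eq_zero.mp h3).resolve_left (sub_ne_zero.mpr (Ne.symm hc))
  by_cases h1 : c = 1
  · subst h1
    have h10 : g.1 1 0 = 0 := by linear_combination c0
    by_cases h2 : d = 1
    · subst h2
      exact ⟨h10, by linear_combination d0⟩
    · exact ⟨h10, aux h2 d2⟩
  · exact ⟨aux h1 c1, aux h1 c2⟩

/-- Lifts of `Abar` lie in `Par`. -/
theorem mem_Par_of_mem_Abar {g : SpecialLinearGroup (Fin 3) F} (h : mkP g ∈ Abar F) : g ∈ Par F := by
  obtain ⟨A, c, -, hc⟩ := mem_Abar_iff_smul.1 h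
  exact smul_ut_mem hc

/-- `Par` normalises `Abar`. -/
theorem conj_mem_Abar (hF : Fintype.card F = 4) {g h : SpecialLinearGroup (Fin 3) F} (hg : g ∈ Par F)
    (hh : mkP h ∈ Abar F) : mkP (g * h * g⁻¹) ∈ Abar F := by
  have h1 : h ∈ Par F := mem_Par_of_mem_Abar hh
  have h2 : rho0 hF ⟨h, h1⟩ = 1 := (rho0_eq_one_iff hF ⟨h, h1⟩).2 hh
  have h3 : rho0 hF (⟨g, hg⟩ * ⟨h, h1⟩ * (⟨g, hg⟩ : ↥(Par F))⁻¹) = 1 := by
    rw [map_mul, map_mul, h2, mul_one, map_inv, mul_inv_cancel]
  exact (rho0_eq_one_iff hF _).1 h3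

theorem mem_normalizer_Abar (hF : Fintype.card F = 4) (g : SpecialLinearGroup (Fin 3) F) :
    mkP g ∈ Subgroup.normalizer ((Abar F : Subgroup _) : Set (ProjectiveSpecialLinearGroup (Fin 3) F)) ↔ g ∈ Par F := by
  refine ⟨mem_Par_of_normalizer hF, fun hg => ?_⟩
  rw [Subgroup.mem_normalizer_iff]
  intro y
  obtain ⟨h, rfl⟩ := mkP_surj y
  constructor
  · intro hh
    exact conj_mem_Abar hF hg hh
  · intro hh
    have h1 : mkP (g * h * g⁻¹) ∈ Abar F := hh
    have h2 := conj_mem_Abar hF ((Par F).inv_mem hg) h1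
    have h3 : g⁻¹ * (g * h * g⁻¹) * g⁻¹⁻¹ = h := by group
    rwa [h3] at h2

/-- The map on the normaliser of `Abar`. -/
noncomputable def rhoBar (hF : Fintype.card F = 4) :
    ↥(Subgroup.normalizer ((Abar F : Subgroup _) : Set (ProjectiveSpecialLinearGroup (Fin 3) F))) →*
      SpecialLinearGroup (Fin 2) F := by
  classical
  have hex : ∀ y : ↥(Subgroup.normalizer ((Abar F : Subgroup _) : Set (ProjectiveSpecialLinearGroup (Fin 3) F))),
      ∃ g : ↥(Par F), mkP g.1 = y.1 := by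
    intro y
    obtain ⟨g, hg⟩ := mkP_surj y.1
    refine ⟨⟨g, (mem_normalizer_Abar hF g).1 ?_⟩, hg⟩
    rw [hg]
    exact y.2
  exact MonoidHom.mk' (fun y => rho0 hF (hex y).choose) (by
    intro a b
    rw [← map_mul]
    apply rho0_congr hF
    rw [(hex (a * b)).choose_spec]
    show _ = mkP ((hex a).choose.1 * (hex b).choose.1)
    rw [mkP_mul, (hex a).choose_spec, (hex b).choose_spec]
    rfl)

theorem rhoBar_apply (hF : Fintype.card F = 4) (y : ↥(Subgroup.normalizer ((Abar F : Subgroup _) : Set (ProjectiveSpecialLinearGroup (Fin 3) F))))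
    (g : ↥(Par F)) (h : mkP g.1 = y.1) : rhoBar hF y = rho0 hF g := by
  have hg : ∃ g : ↥(Par F), mkP g.1 = y.1 := ⟨g, h⟩
  unfold rhoBar
  simp only [MonoidHom.mk'_apply]
  apply rho0_congr hF
  rw [h]
  exact Exists.choose_spec (p := fun g : ↥(Par F) => mkP g.1 = y.1) _

/-- Embedding of `SL₂` in `Par`. -/
def embD (D : SpecialLinearGroup (Fin 2) F) : ↥(Par F) :=
  ⟨⟨!![1, 0, 0; 0, D.1 0 0, D.1 0 1; 0, D.1 1 0, D.1 1 1], by
    have h := D.2
    rw [Matrix.det_fin_two] at h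
    rw [Matrix.det_fin_three]
    simp only [Matrix.of_apply, Matrix.cons_val', Matrix.cons_val_zero, Matrix.cons_val_one, Matrix.cons_val_fin_one, Matrix.cons_val]
    linear_combination h⟩, by
    constructor <;> simp⟩

theorem rho0_embD (hF : Fintype.card F = 4) (D : SpecialLinearGroup (Fin 2) F) : rho0 hF (embD D) = D := by
  have h1 : blk (embD D).1 = D.1 := by
    ext i j
    fin_cases i <;> fin_cases j <;> simp [blk, embD]
  apply Subtype.ext
  rw [rho0_apply, h1, D.2, one_smul]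

/-- `rhoBar` is surjective. -/
theorem rhoBar_surjective (hF : Fintype.card F = 4) : Function.Surjective (rhoBar hF) := by
  intro D
  refine ⟨⟨mkP (embD D).1, (mem_normalizer_Abar hF _).2 (embD D).2⟩, ?_⟩
  rw [rhoBar_apply hF _ (embD D) rfl, rho0_embD]

/-- The kernel of `rhoBar`. -/
theorem rhoBar_eq_one_iff (hF : Fintype.card F = 4) (y : ↥(Subgroup.normalizer ((Abar F : Subgroup _) : Set (ProjectiveSpecialLinearGroup (Fin 3) F)))) :
    rhoBar hF y = 1 ↔ y.1 ∈ Abar F := by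
  obtain ⟨g, hg⟩ := mkP_surj y.1
  have hgP : g ∈ Par F := by
    rw [← mem_normalizer_Abar hF, hg]
    exact y.2
  rw [rhoBar_apply hF y ⟨g, hgP⟩ hg, rho0_eq_one_iff, hg]

/-- `SL₂` of the field with four elements is its projective group. -/
noncomputable def sl2EquivPsl2 (hF : Fintype.card F = 4) :
    SpecialLinearGroup (Fin 2) F ≃* ProjectiveSpecialLinearGroup (Fin 2) F := by
  have h2 : (2 : F) = 0 := Cfsg.Agent.Lib.F4.Basic.two_eq_zero hF
  have hb : Subgroup.center (SpecialLinearGroup (Fin 2) F) = ⊥ := by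
    rw [eq_bot_iff]
    intro A hA
    rw [Matrix.SpecialLinearGroup.mem_center_iff] at hA
    obtain ⟨r, hr, hA⟩ := hA
    have h1 : (r - 1) ^ 2 = 0 := by
      simp only [Fintype.card_fin] at hr
      linear_combination hr + (1 - r) * h2
    have h3 : r = 1 := sub_eq_zero.mp (pow_eq_zero_iff (by norm_num) |>.mp h1)
    rw [Subgroup.mem_bot]
    apply Subtype.ext
    rw [← hA, h3]
    simp
  exact (QuotientGroup.quotientBot.symm.trans (QuotientGroup.quotientMulEquivOfEq hb.symm))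

end Cfsg.Agent.Lib.L34Sec
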