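import Cfsg.Agent.Lib.L34Sec.Par
import Cfsg.Agent.Lib.Solvable.Gaschutz

/-!
# Central extensions of `PSL₃(4)`: preimages of `Abar` have exponent two and are complemented in their normaliser
-/

set_option autoImplicit false
set_option linter.unusedSectionVars false

namespace Cfsg.Agent.Lib.L34Sec

open Matrix
open Cfsg.Agent.Lib.KS71.PSLCore Cfsg.Agent.Lib.KS71.UniTri Cfsg.Agent.Lib.KS71.PSLSylow
open Cfsg.Agent.Lib.TwoFusion.Hyp

variable {F : Type*} [Field F] [Fintype F]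

/-- `SL₃` moves any nontrivial element of `A` to the standard one. -/
theorem exists_conj_std {a c : F} (h : a ≠ 0 ∨ c ≠ 0) :
    ∃ g : SpecialLinearGroup (Fin 3) F, g * (utMk a 0 c : UT F).1 * g⁻¹ = (utMk 1 0 0 : UT F).1 := by
  by_cases ha : a = 0
  · subst ha
    have hc : c ≠ 0 := h.resolve_left (by simp)
    have hd : (!![1, 0, 0; 0, 0, c; 0, -c⁻¹, 0] : Matrix (Fin 3) (Fin 3) F).det = 1 := by
      rw [Matrix.det_fin_three]
      simp [hc]
    obtain ⟨g, hg⟩ : ∃ g : Matrix.SpecialLinearGroup (Fin 3) F, g.1 = !![1, 0, 0; 0, 0, c; 0, -c⁻¹, 0] := ⟨⟨_, hd⟩, rfl⟩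
    refine ⟨g, ?_⟩
    rw [mul_inv_eq_iff_eq_mul]
    apply Subtype.ext
    show g.1 * (utMk 0 0 c : UT F).1.1 = (utMk 1 0 0 : UT F).1.1 * g.1
    rw [hg]
    ext i j
    fin_cases i <;> fin_cases j <;> simp [utMk, Matrix.mul_apply, Fin.sum_univ_three]
  · have hd : (!![1, 0, 0; 0, a, c; 0, 0, a⁻¹] : Matrix (Fin 3) (Fin 3) F).det = 1 := by
      rw [Matrix.det_fin_three]
      simp [ha]
    obtain ⟨g, hg⟩ : ∃ g : Matrix.SpecialLinearGroup (Fin 3) F, g.1 = !![1, 0, 0; 0, a, c; 0, 0, a⁻¹] := ⟨⟨_, hd⟩, rfl⟩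
    refine ⟨g, ?_⟩
    rw [mul_inv_eq_iff_eq_mul]
    apply Subtype.ext
    show g.1 * (utMk a 0 c : UT F).1.1 = (utMk 1 0 0 : UT F).1.1 * g.1
    rw [hg]
    ext i j
    fin_cases i <;> fin_cases j <;> simp [utMk, Matrix.mul_apply, Fin.sum_univ_three]

/-- Elements of a group squaring to a central involution. -/
theorem comm_of_sq {X : Type*} [Group X] {a b z : X} (hzz : z * z = 1) (h1 : a * a = z)
    (h2 : b * b = z) (h3 : a * b * (a * b) = z) : b * a = a * b * z := by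
  have ai : a⁻¹ = a * z := inv_eq_of_mul_eq_one_right (by rw [← mul_assoc, h1, hzz])
  have bi : b⁻¹ = b * z := inv_eq_of_mul_eq_one_right (by rw [← mul_assoc, h2, hzz])
  calc b * a = a⁻¹ * (a * b * (a * b)) * b⁻¹ := by group
    _ = a⁻¹ * z * b⁻¹ := by rw [h3]
    _ = a * z * z * (b * z) := by rw [ai, bi]
    _ = a * (z * z) * b * z := by group
    _ = a * b * z := by rw [hzz]; group

section side

variable {X : Type*} [Group X] (hF : Fintype.card F = 4)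
  (ψ : X →* ProjectiveSpecialLinearGroup (Fin 3) F) (hs : Function.Surjective ψ)
  (hker : ∀ x, ψ x = 1 ↔ x ∈ Subgroup.center X)
  (hZ : ∀ z ∈ Subgroup.center X, z * z = 1)
  (L : Subgroup X) (hL : ∀ x, x ∈ L ↔ ψ x ∈ Abar F)

include hF hs hker hZ hL

/-- `L` has exponent two. -/
theorem sq_eq_one_of_mem {x : X} (hx : x ∈ L) : x * x = 1 := by
  have h2 : (2 : F) = 0 := Cfsg.Agent.Lib.F4.Basic.two_eq_zero hF
  -- squares of elements of `A` are trivial
  have hsq : ∀ y ∈ Abar F, y * y = 1 := by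
    rintro _ ⟨A, hA, rfl⟩
    have h1 := sq_ut h2 A
    have h3 : A * A = 1 := by
      apply ut_ext
      · rw [h1.1, ca_one]
      · rw [h1.2.1, cb_one]
      · rw [h1.2.2, hA, mul_zero]
        simp [cc]
    show mkP (A * A).1 = 1
    rw [h3]
    rfl
  obtain ⟨x₀, hx₀⟩ := hs (mkP (utMk (1 : F) 0 0 : UT F).1)
  have hx₀L : x₀ ∈ L := (hL _).2 (by rw [hx₀]; exact ⟨_, rfl, rfl⟩)
  -- everything nontrivial squares to the same thing
  have hz₀ : (x₀ * x₀) ∈ Subgroup.center X := by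
    rw [← hker, map_mul]
    exact hsq _ ((hL _).1 hx₀L)
  have hq : ∀ x ∈ L, ψ x ≠ 1 → x * x = x₀ * x₀ := by
    intro x hxL hx1
    obtain ⟨A, hA, hAx⟩ := (hL x).1 hxL
    have hA' : A = utMk (ca A) 0 (cc A) := by
      conv_lhs => rw [ut_eq_mk A, hA]
    have hne : ca A ≠ 0 ∨ cc A ≠ 0 := by
      by_contra hcon
      push Not at hcon
      apply hx1
      rw [← hAx, hA', hcon.1, hcon.2]
      have : (utMk (0 : F) 0 0 : UT F) = 1 := ut_ext rfl rfl rfl
      rw [this]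
      rfl
    obtain ⟨g, hg⟩ := exists_conj_std hne
    rw [← hA'] at hg
    obtain ⟨y, hy⟩ := hs (mkP g)
    have h1 : ψ (y * x * y⁻¹) = ψ x₀ := by
      rw [map_mul, map_mul, map_inv, hy, hx₀, ← hAx, ← mkP_inv, ← mkP_mul, ← mkP_mul, hg]
    have hz : x₀⁻¹ * (y * x * y⁻¹) ∈ Subgroup.center X := by
      rw [← hker, map_mul, map_inv, h1, inv_mul_cancel]
    set z := x₀⁻¹ * (y * x * y⁻¹) with hzdef
    have h3 : y * x * y⁻¹ = x₀ * z := by rw [hzdef]; group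
    have hxx : x * x ∈ Subgroup.center X := by
      rw [← hker, map_mul]
      exact hsq _ ((hL _).1 hxL)
    have h4 : y * (x * x) * y⁻¹ = x * x := by
      rw [Subgroup.mem_center_iff.mp hxx y]
      group
    have h5 : y * (x * x) * y⁻¹ = (y * x * y⁻¹) * (y * x * y⁻¹) := by group
    rw [← h4, h5, h3]
    calc x₀ * z * (x₀ * z) = x₀ * x₀ * (z * z) := by
          rw [mul_assoc x₀ z, ← mul_assoc z, ← Subgroup.mem_center_iff.mp hz x₀]
          group
      _ = x₀ * x₀ := by rw [hZ z hz, mul_one]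
  -- commutators
  obtain ⟨z₀, hz₀def⟩ : ∃ z₀, z₀ = x₀ * x₀ := ⟨_, rfl⟩
  rw [← hz₀def] at hz₀ hq
  have hz₀2 : z₀ * z₀ = 1 := hZ _ hz₀
  have hcomm : ∀ a ∈ L, ∀ b ∈ L, ψ a ≠ 1 → ψ b ≠ 1 → ψ (a * b) ≠ 1 → b * a = a * b * z₀ := by
    intro a ha b hb ha1 hb1 hab1
    have h1 := hq a ha ha1
    have h2 := hq b hb hb1
    have h3 := hq (a * b) (L.mul_mem ha hb) hab1
    exact comm_of_sq hz₀2 h1 h2 h3
  -- three independent elements
  have hex : ∃ ω : F, ω ≠ 0 ∧ ω ≠ 1 := by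
    classical
    by_contra h
    push Not at h
    have h4 : (Finset.univ : Finset F) ⊆ {0, 1} := by
      intro x _
      by_cases hx : x = 0
      · simp [hx]
      · simp [h x hx]
    have h5 := Finset.card_le_card h4
    rw [Finset.card_univ, hF] at h5
    have h6 : ({0, 1} : Finset F).card ≤ 2 := Finset.card_le_two
    omega
  obtain ⟨ω, hω0, hω1⟩ := hex
  obtain ⟨x₂, hx₂⟩ := hs (mkP (utMk ω 0 0 : UT F).1)
  obtain ⟨x₃, hx₃⟩ := hs (mkP (utMk (0 : F) 0 1 : UT F).1)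
  have hx₂L : x₂ ∈ L := (hL _).2 (by rw [hx₂]; exact ⟨_, rfl, rfl⟩)
  have hx₃L : x₃ ∈ L := (hL _).2 (by rw [hx₃]; exact ⟨_, rfl, rfl⟩)
  have hne1 : ∀ A : UT F, (ca A ≠ 0 ∨ cc A ≠ 0) → mkP A.1 ≠ 1 := by
    intro A hA h
    have h3 : A = 1 := mkP_ut_inj h
    rw [h3] at hA
    simp [ca, cc] at hA
  have e12 : ψ (x₀ * x₂) = mkP (utMk (1 + ω) 0 0 : UT F).1 := by
    rw [map_mul, hx₀, hx₂, ← mkP_mul]
    congr 1
    show ((utMk 1 0 0 : UT F) * utMk ω 0 0).1 = _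
    congr 1
    apply ut_ext
    · rw [ca_mul]; rfl
    · rw [cb_mul]; show (0 : F) + 0 = 0; simp
    · rw [cc_mul]; show (0 : F) + 0 + 1 * 0 = 0; simp
  have e13 : ψ (x₀ * x₃) = mkP (utMk 1 0 1 : UT F).1 := by
    rw [map_mul, hx₀, hx₃, ← mkP_mul]
    congr 1
    show ((utMk 1 0 0 : UT F) * utMk 0 0 1).1 = _
    congr 1
    apply ut_ext
    · rw [ca_mul]; show (1 : F) + 0 = 1; simp
    · rw [cb_mul]; show (0 : F) + 0 = 0; simp
    · rw [cc_mul]; show (0 : F) + 1 + 1 * 0 = 1; simp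
  have e23 : ψ (x₂ * x₃) = mkP (utMk ω 0 1 : UT F).1 := by
    rw [map_mul, hx₂, hx₃, ← mkP_mul]
    congr 1
    show ((utMk ω 0 0 : UT F) * utMk 0 0 1).1 = _
    congr 1
    apply ut_ext
    · rw [ca_mul]; show ω + 0 = ω; simp
    · rw [cb_mul]; show (0 : F) + 0 = 0; simp
    · rw [cc_mul]; show (0 : F) + 1 + ω * 0 = 1; simp
  have e123 : ψ (x₀ * (x₂ * x₃)) = mkP (utMk (1 + ω) 0 1 : UT F).1 := by
    rw [map_mul, e23, hx₀, ← mkP_mul]
    congr 1
    show ((utMk 1 0 0 : UT F) * utMk ω 0 1).1 = _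
    congr 1
    apply ut_ext
    · rw [ca_mul]; rfl
    · rw [cb_mul]; show (0 : F) + 0 = 0; simp
    · rw [cc_mul]; show (0 : F) + 1 + 1 * 0 = 1; simp
  have h1ω : 1 + ω ≠ 0 := by
    intro h
    apply hω1
    have h5 := neg_eq_self hF (1 : F)
    linear_combination h - h2
  have n0 : ψ x₀ ≠ 1 := by rw [hx₀]; exact hne1 _ (Or.inl (by rw [ca_mk]; exact one_ne_zero))
  have n2 : ψ x₂ ≠ 1 := by rw [hx₂]; exact hne1 _ (Or.inl hω0)
  have n3 : ψ x₃ ≠ 1 := by rw [hx₃]; exact hne1 _ (Or.inr one_ne_zero)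
  have n12 : ψ (x₀ * x₂) ≠ 1 := by rw [e12]; exact hne1 _ (Or.inl h1ω)
  have n13 : ψ (x₀ * x₃) ≠ 1 := by rw [e13]; exact hne1 _ (Or.inl one_ne_zero)
  have n23 : ψ (x₂ * x₃) ≠ 1 := by rw [e23]; exact hne1 _ (Or.inl hω0)
  have n123 : ψ (x₀ * (x₂ * x₃)) ≠ 1 := by rw [e123]; exact hne1 _ (Or.inl h1ω)
  have c1 := hcomm x₀ hx₀L x₂ hx₂L n0 n2 n12
  have c2 := hcomm x₀ hx₀L x₃ hx₃L n0 n3 n13
  have c3 := hcomm x₀ hx₀L (x₂ * x₃) (L.mul_mem hx₂L hx₃L) n0 n23 n123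
  have e1 : ∀ g, g * z₀ = z₀ * g := fun g => Subgroup.mem_center_iff.mp hz₀ g
  have hz1 : z₀ = 1 := by
    have h6 : x₂ * x₃ * x₀ = x₀ * (x₂ * x₃) := by
      calc x₂ * x₃ * x₀ = x₂ * (x₃ * x₀) := by group
        _ = x₂ * (x₀ * x₃ * z₀) := by rw [c2]
        _ = (x₂ * x₀) * x₃ * z₀ := by group
        _ = (x₀ * x₂ * z₀) * x₃ * z₀ := by rw [c1]
        _ = x₀ * x₂ * (z₀ * x₃) * z₀ := by group
        _ = x₀ * x₂ * (x₃ * z₀) * z₀ := by rw [e1 x₃]
        _ = x₀ * (x₂ * x₃) * (z₀ * z₀) := by group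
        _ = x₀ * (x₂ * x₃) := by rw [hz₀2, mul_one]
    rw [h6] at c3
    exact (mul_eq_left.mp c3.symm)
  by_cases hx1 : ψ x = 1
  · exact hZ x ((hker x).1 hx1)
  · rw [hq x hx hx1]
    exact hz1

omit hF hs hker hZ hL in
/-- Exponent two implies commutativity. -/
theorem comm_of_exp_two {a b : X} (h1 : a * a = 1) (h2 : b * b = 1) (h3 : a * b * (a * b) = 1) : a * b = b * a := by
  have h := comm_of_sq (a := a) (b := b) (z := 1) (by simp) h1 h2 h3
  rw [h, mul_one]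

/-- The normaliser of `L` is the preimage of the normaliser of `Abar`. -/
theorem mem_normalizer_L (x : X) :
    x ∈ Subgroup.normalizer (L : Set X) ↔
      ψ x ∈ Subgroup.normalizer ((Abar F : Subgroup _) : Set (ProjectiveSpecialLinearGroup (Fin 3) F)) := by
  rw [Subgroup.mem_normalizer_iff, Subgroup.mem_normalizer_iff]
  constructor
  · intro h y
    obtain ⟨t, rfl⟩ := hs y
    have := h t
    rw [hL, hL, map_mul, map_mul, map_inv] at this
    exact this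
  · intro h t
    have := h (ψ t)
    rw [hL, hL, map_mul, map_mul, map_inv]
    exact this

theorem comap_Ubar_le_normalizer : (Ubar 3 F).comap ψ ≤ Subgroup.normalizer (L : Set X) := by
  intro x hx
  rw [mem_normalizer_L hF ψ hs hker hZ L hL]
  obtain ⟨s, hs1, hs2⟩ := mem_Ubar.1 (Subgroup.mem_comap.1 hx)
  rw [← hs2, mem_normalizer_Abar hF]
  have h := ut_entries (⟨s, hs1⟩ : UT F)
  exact ⟨h.2.2.2.1, h.2.2.2.2.1⟩

/-- **Splitting.** -/
theorem exists_complement [Finite X] (L' : Subgroup X) (h1 : L' ⊓ L = ⊥) (h2 : L ⊔ L' = (Ubar 3 F).comap ψ) :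
    ∃ C : Subgroup X, C ≤ Subgroup.normalizer (L : Set X) ∧ C ⊓ L = ⊥ ∧ L ⊔ C = Subgroup.normalizer (L : Set X) ∧
      Nonempty (↥C ≃* ProjectiveSpecialLinearGroup (Fin 2) F) := by
  have hsqL : ∀ x ∈ L, x * x = 1 := fun x hx => sq_eq_one_of_mem hF ψ hs hker hZ L hL hx
  set N := Subgroup.normalizer (L : Set X) with hNdef
  have hWN : (Ubar 3 F).comap ψ ≤ N := comap_Ubar_le_normalizer hF ψ hs hker hZ L hL
  have hLW : L ≤ (Ubar 3 F).comap ψ := h2 ▸ le_sup_left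
  have hL'W : L' ≤ (Ubar 3 F).comap ψ := h2 ▸ le_sup_right
  have hLN : L ≤ N := hLW.trans hWN
  have hL'N : L' ≤ N := hL'W.trans hWN
  let K : Subgroup ↥N := L.subgroupOf N
  haveI hKn : K.Normal := Subgroup.normal_in_normalizer
  haveI hKc : IsMulCommutative K := by
    refine ⟨⟨fun a b => ?_⟩⟩
    have ha : a.1.1 ∈ L := a.2
    have hb : b.1.1 ∈ L := b.2
    apply Subtype.ext
    apply Subtype.ext
    exact comm_of_exp_two (hsqL _ ha) (hsqL _ hb) (hsqL _ (L.mul_mem ha hb))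
  have hidx : ¬ 2 ∣ ((Ubar 3 F).comap ψ).index := by
    rw [Subgroup.index_comap_of_surjective _ hs]
    exact not_dvd_index_Ubar Nat.prime_two (f := 2) (by rw [hF]; norm_num) (by norm_num) (by norm_num)
  have hU : ¬ 2 ∣ (((Ubar 3 F).comap ψ).subgroupOf N).index := by
    intro h
    apply hidx
    have h3 := Subgroup.relIndex_mul_index hWN
    rw [← h3]
    exact Dvd.dvd.mul_right h _
  have hcop : (Nat.card K).Coprime (((Ubar 3 F).comap ψ).subgroupOf N).index := by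
    haveI : Fact (Nat.Prime 2) := ⟨Nat.prime_two⟩
    have hp : IsPGroup 2 K := by
      intro g
      refine ⟨1, ?_⟩
      apply Subtype.ext
      apply Subtype.ext
      rw [pow_one, pow_two]
      exact hsqL _ g.2
    obtain ⟨n, hn⟩ := IsPGroup.iff_card.1 hp
    rw [hn]
    exact Nat.Coprime.pow_left n ((Nat.Prime.coprime_iff_not_dvd Nat.prime_two).2 hU)
  have hKU : K ≤ ((Ubar 3 F).comap ψ).subgroupOf N := Subgroup.comap_mono hLW
  have hAK : L'.subgroupOf N ⊓ K = ⊥ := by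
    rw [eq_bot_iff]
    rintro x ⟨hx1, hx2⟩
    have h3 : x.1 ∈ L' ⊓ L := ⟨hx1, hx2⟩
    rw [h1, Subgroup.mem_bot] at h3
    exact Subtype.ext h3
  have hKA : K ⊔ L'.subgroupOf N = ((Ubar 3 F).comap ψ).subgroupOf N := by
    rw [← h2, Subgroup.subgroupOf_sup hLN hL'N]
  obtain ⟨C', hC'⟩ := Cfsg.Agent.Lib.Solvable.Gaschutz.gaschutz_exists K hKU hcop hAK hKA
  -- the map to `SL₂`
  let res : ↥N →* ↥(Subgroup.normalizer ((Abar F : Subgroup _) : Set (ProjectiveSpecialLinearGroup (Fin 3) F))) :=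
    (ψ.comp N.subtype).codRestrict _ (fun x => (mem_normalizer_L hF ψ hs hker hZ L hL x.1).1 x.2)
  let f : ↥N →* SpecialLinearGroup (Fin 2) F := (rhoBar hF).comp res
  have hfk : ∀ x : ↥N, f x = 1 ↔ x ∈ K := by
    intro x
    show rhoBar hF (res x) = 1 ↔ x.1 ∈ L
    rw [rhoBar_eq_one_iff, hL]
    rfl
  have hfs : Function.Surjective f := by
    intro D
    obtain ⟨y, hy⟩ := rhoBar_surjective hF D
    obtain ⟨x, hx⟩ := hs y.1
    refine ⟨⟨x, (mem_normalizer_L hF ψ hs hker hZ L hL x).2 (hx ▸ y.2)⟩, ?_⟩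
    rw [← hy]
    show rhoBar hF (res _) = _
    congr 1
    exact Subtype.ext hx
  refine ⟨C'.map N.subtype, Subgroup.map_subtype_le _, ?_, ?_, ?_⟩
  · rw [eq_bot_iff]
    rintro _ ⟨⟨c, hc, rfl⟩, hc2⟩
    have h3 : c ∈ K ⊓ C' := ⟨hc2, hc⟩
    rw [hC'.disjoint.eq_bot, Subgroup.mem_bot] at h3
    rw [h3]
    rfl
  · apply le_antisymm
    · exact sup_le hLN (Subgroup.map_subtype_le _)
    · intro x hx
      obtain ⟨⟨k, c⟩, hkc⟩ := hC'.2 ⟨x, hx⟩
      have h3 : x = k.1.1 * c.1.1 := by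
        have := congrArg Subtype.val hkc
        exact this.symm
      rw [h3]
      exact Subgroup.mul_mem _ (Subgroup.mem_sup_left k.2)
        (Subgroup.mem_sup_right ⟨c.1, c.2, rfl⟩)
  · let g : ↥C' →* SpecialLinearGroup (Fin 2) F := f.comp C'.subtype
    have hg : Function.Bijective g := by
      constructor
      · rw [injective_iff_map_eq_one]
        intro c hc
        have h3 : c.1 ∈ K ⊓ C' := ⟨(hfk _).1 hc, c.2⟩
        rw [hC'.disjoint.eq_bot, Subgroup.mem_bot] at h3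
        exact Subtype.ext h3
      · intro D
        obtain ⟨x, hx⟩ := hfs D
        obtain ⟨⟨k, c⟩, hkc⟩ := hC'.2 x
        refine ⟨c, ?_⟩
        rw [← hx]
        have h3 : x = k.1 * c.1 := hkc.symm
        rw [h3, map_mul, (hfk k.1).2 k.2, one_mul]
        rfl
    exact ⟨(Subgroup.equivMapOfInjective C' N.subtype N.subtype_injective).symm.trans
      ((MulEquiv.ofBijective g hg).trans (sl2EquivPsl2 hF))⟩

end side

end Cfsg.Agent.Lib.L34Sec
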