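import Cfsg.Agent.Lib.L34Sec.Side

/-!
# The inverse transpose automorphism of `PSL₃`, exchanging `Abar` and `Bbar`
-/

set_option autoImplicit false
set_option linter.unusedSectionVars false

namespace Cfsg.Agent.Lib.L34Sec

open Matrix
open Cfsg.Agent.Lib.KS71.PSLCore Cfsg.Agent.Lib.KS71.UniTri Cfsg.Agent.Lib.KS71.PSLSylow
open Cfsg.Agent.Lib.TwoFusion.Hyp

variable {F : Type*} [Field F] [Fintype F]

/-- The reversal matrix. -/
def wM (F : Type*) [Field F] : Matrix (Fin 3) (Fin 3) F := !![0, 0, 1; 0, 1, 0; 1, 0, 0]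

theorem wM_mul_wM : wM F * wM F = 1 := by
  ext i j
  fin_cases i <;> fin_cases j <;> simp [wM, Matrix.mul_apply, Fin.sum_univ_three]

theorem wM_transpose : (wM F)ᵀ = wM F := by
  ext i j
  fin_cases i <;> fin_cases j <;> simp [wM]

theorem inv_val_mul (g : SpecialLinearGroup (Fin 3) F) : (g⁻¹).1 * g.1 = 1 := by
  have h : (g⁻¹ * g).1 = 1 := by rw [inv_mul_cancel]; rfl
  exact h

theorem wconj_mul (A B : Matrix (Fin 3) (Fin 3) F) : wM F * (A * B) * wM F = (wM F * A * wM F) * (wM F * B * wM F) := by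
  calc wM F * (A * B) * wM F = wM F * A * 1 * B * wM F := by simp [mul_assoc]
    _ = wM F * A * (wM F * wM F) * B * wM F := by rw [wM_mul_wM]
    _ = _ := by simp [mul_assoc]

/-- The inverse transpose, conjugated by the reversal. -/
noncomputable def tau0 : SpecialLinearGroup (Fin 3) F →* SpecialLinearGroup (Fin 3) F where
  toFun g := ⟨wM F * ((g⁻¹).1)ᵀ * wM F, by
    have h1 : (wM F).det * (wM F).det = 1 := by
      rw [← Matrix.det_mul, wM_mul_wM, Matrix.det_one]
    rw [Matrix.det_mul, Matrix.det_mul, Matrix.det_transpose, (g⁻¹).2, mul_one, h1]⟩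
  map_one' := by
    apply Subtype.ext
    show wM F * (((1 : SpecialLinearGroup (Fin 3) F)⁻¹).1)ᵀ * wM F = 1
    rw [inv_one]
    show wM F * (1 : Matrix (Fin 3) (Fin 3) F)ᵀ * wM F = 1
    rw [Matrix.transpose_one, mul_one, wM_mul_wM]
  map_mul' := by
    intro a b
    apply Subtype.ext
    show wM F * (((a * b)⁻¹).1)ᵀ * wM F = (wM F * ((a⁻¹).1)ᵀ * wM F) * (wM F * ((b⁻¹).1)ᵀ * wM F)
    rw [_root_.mul_inv_rev, ← wconj_mul]
    congr 2
    show ((b⁻¹).1 * (a⁻¹).1)ᵀ = _
    rw [Matrix.transpose_mul]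

theorem tau0_val (g : SpecialLinearGroup (Fin 3) F) : (tau0 g).1 = wM F * ((g⁻¹).1)ᵀ * wM F := rfl

theorem tau0_tau0 (g : SpecialLinearGroup (Fin 3) F) : tau0 (tau0 g) = g := by
  apply Subtype.ext
  rw [tau0_val, ← map_inv, tau0_val, inv_inv]
  rw [Matrix.transpose_mul, Matrix.transpose_mul, wM_transpose, Matrix.transpose_transpose]
  calc wM F * (wM F * (g.1 * wM F)) * wM F = (wM F * wM F) * g.1 * (wM F * wM F) := by simp only [mul_assoc]
    _ = g.1 := by rw [wM_mul_wM]; simp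

/-- The induced map on `PSL₃`. -/
noncomputable def tau : ProjectiveSpecialLinearGroup (Fin 3) F →* ProjectiveSpecialLinearGroup (Fin 3) F :=
  QuotientGroup.map _ _ tau0 (by
    intro x hx
    rw [Subgroup.mem_comap, Subgroup.mem_center_iff]
    intro y
    have h := (Subgroup.mem_center_iff.mp hx) (tau0 y)
    have h2 := congrArg tau0 h
    rw [map_mul, map_mul, tau0_tau0] at h2
    exact h2)

theorem tau_mkP (g : SpecialLinearGroup (Fin 3) F) : tau (mkP g) = mkP (tau0 g) := rfl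

theorem tau_tau (y : ProjectiveSpecialLinearGroup (Fin 3) F) : tau (tau y) = y := by
  obtain ⟨g, rfl⟩ := mkP_surj y
  rw [tau_mkP, tau_mkP, tau0_tau0]

theorem tau_bijective : Function.Bijective (tau : ProjectiveSpecialLinearGroup (Fin 3) F →* _) :=
  Function.Involutive.bijective tau_tau

/-- The effect on unitriangular matrices. -/
theorem tau0_ut (a b c : F) : (tau0 (utMk a b c : UT F).1).1 = (utMk (-b) (-a) (a * b - c) : UT F).1.1 := by
  rw [tau0_val, Matrix.SpecialLinearGroup.coe_inv, Matrix.adjugate_fin_three]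
  ext i j
  fin_cases i <;> fin_cases j <;> simp [wM, utMk, Matrix.mul_apply, Fin.sum_univ_three, Matrix.vecMul, dotProduct]

theorem tau_ut (a b c : F) : tau (mkP (utMk a b c : UT F).1) = mkP (utMk (-b) (-a) (a * b - c) : UT F).1 := by
  rw [tau_mkP]
  exact mkP_congr (tau0_ut a b c)

theorem mem_Bbar_iff_tau (y : ProjectiveSpecialLinearGroup (Fin 3) F) : y ∈ Bbar F ↔ tau y ∈ Abar F := by
  constructor
  · rintro ⟨A, hA, rfl⟩
    rw [ut_eq_mk A, hA, tau_ut]
    exact ⟨_, by rw [cb_mk, neg_zero], rfl⟩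
  · intro h
    obtain ⟨A, hA, hy⟩ := h
    rw [← tau_tau y, ← hy, ut_eq_mk A, hA, tau_ut]
    exact ⟨_, by rw [ca_mk, neg_zero], rfl⟩

theorem mem_Ubar_iff_tau (y : ProjectiveSpecialLinearGroup (Fin 3) F) : y ∈ Ubar 3 F ↔ tau y ∈ Ubar 3 F := by
  have key : ∀ y : ProjectiveSpecialLinearGroup (Fin 3) F, y ∈ Ubar 3 F → tau y ∈ Ubar 3 F := by
    intro y hy
    obtain ⟨s, hs, rfl⟩ := mem_Ubar.1 hy
    have h : ((⟨s, hs⟩ : UT F)).1 = s := rfl
    rw [← h, ut_eq_mk (⟨s, hs⟩ : UT F), tau_ut]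
    exact mem_Ubar.2 ⟨_, Subtype.property _, rfl⟩
  refine ⟨key y, fun h => ?_⟩
  have := key _ h
  rwa [tau_tau] at this

end Cfsg.Agent.Lib.L34Sec
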